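import Cfsg.Agent.Lib.Perm75.TW
import Cfsg.Agent.Lib.Perm75.Prim

/-! Index bounds for the second cores, and the Thompson–Wielandt pair of two point stabilisers. -/

set_option autoImplicit false

namespace H75

open Cfsg Subgroup H68 MulAction

variable {G : Type*} [Group G]

theorem index_normalCore_dvd_factorial [Finite G] (H : Subgroup G) :
    H.normalCore.index ∣ H.index.factorial := by
  rw [normalCore_eq_ker, index_ker, index_eq_card, ← Nat.card_perm]
  exact card_subgroup_dvd_card _

theorem relIndex_coreIn (M Y : Subgroup G) :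
    (coreIn M Y).relIndex M = (Y.subgroupOf M).normalCore.index := by
  rw [relIndex, coreIn, subgroupOf, comap_map_eq_self_of_injective M.subtype_injective]

theorem relIndex_coreIn_dvd [Finite G] (M Y : Subgroup G) :
    (coreIn M Y).relIndex M ∣ (Y.relIndex M).factorial := by
  rw [relIndex_coreIn]; exact index_normalCore_dvd_factorial _

theorem index_biInf_dvd {ι : Type*} (s : Finset ι) (N : ι → Subgroup G) (h : ∀ i, (N i).Normal) :
    (⨅ i ∈ s, N i).index ∣ ∏ i ∈ s, (N i).index := by
  classical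
  induction s using Finset.induction_on with
  | empty => simp
  | insert a s ha ih =>
    have := h a
    rw [Finset.iInf_insert, Finset.prod_insert ha,
      ← relIndex_mul_index (inf_le_right : N a ⊓ ⨅ i ∈ s, N i ≤ _), inf_relIndex_right]
    exact mul_dvd_mul (relIndex_dvd_index_of_normal _ _) ih

theorem relIndex_core2_dvd [Finite G] {M₁ M₂ : Subgroup G} {d : ℕ} (h1 : M₂.relIndex M₁ = d)
    (h2 : M₁.relIndex M₂ = d) :
    (coreIn M₁ (coreIn M₁ (M₁ ⊓ M₂) ⊓ coreIn M₂ (M₁ ⊓ M₂))).relIndex M₁ ∣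
      d.factorial * (d - 1).factorial ^ d := by
  classical
  set A1 := coreIn M₁ (M₁ ⊓ M₂)
  set B1 := coreIn M₂ (M₁ ⊓ M₂)
  have hA1 : A1 ≤ M₁ ⊓ M₂ := coreIn_le _ _
  have hB1 : B1 ≤ M₁ ⊓ M₂ := coreIn_le _ _
  have nA1 : M₁ ≤ normalizer (A1 : Set G) := le_normalizer_coreIn _ _
  have nB1 : M₂ ≤ normalizer (B1 : Set G) := le_normalizer_coreIn _ _
  have hd0 : d ≠ 0 := h1 ▸ index_ne_zero_of_finite
  rw [← relIndex_mul_relIndex _ A1 M₁ ((coreIn_le _ _).trans inf_le_left) (coreIn_le_left _ _),
    mul_comm]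
  refine mul_dvd_mul ?_ ?_
  · have := relIndex_coreIn_dvd M₁ (M₁ ⊓ M₂)
    rwa [inf_relIndex_left, h1] at this
  have hb : B1.relIndex A1 ∣ (d - 1).factorial := by
    have e1 := relIndex_coreIn_dvd M₂ (M₁ ⊓ M₂)
    rw [inf_relIndex_right, h2, ← relIndex_mul_relIndex B1 (M₁ ⊓ M₂) M₂ hB1 inf_le_right,
      inf_relIndex_right, h2, ← Nat.mul_factorial_pred hd0, mul_comm d,
      Nat.mul_dvd_mul_iff_right (Nat.pos_of_ne_zero hd0)] at e1
    refine dvd_trans ?_ e1
    have := normal_subgroupOf_of_le_normalizer (inf_le_right.trans nB1 : M₁ ⊓ M₂ ≤ _)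
    rw [← relIndex_subgroupOf hA1]
    exact relIndex_dvd_index_of_normal _ _
  have := Fintype.ofFinite (M₁ ⧸ M₂.subgroupOf M₁)
  let N : M₁ ⧸ M₂.subgroupOf M₁ → Subgroup A1 := fun c => (cj (c.out : G) B1).subgroupOf A1
  have hN : ∀ c, (N c).Normal := fun c => normal_subgroupOf_of_le_normalizer (by
    rw [← cj_normalizer, ← cj_eq_of_mem_normalizer (nA1 c.out.2)]
    exact cj_mono _ ((hA1.trans inf_le_right).trans nB1))
  have hNi : ∀ c, (N c).index = B1.relIndex A1 := fun c => by
    change (cj (c.out : G) B1).relIndex A1 = _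
    conv_lhs => rw [← cj_eq_of_mem_normalizer (nA1 c.out.2)]
    exact relIndex_map_map_of_injective _ _ (MulAut.conj (c.out : G)).injective
  have h3 := index_biInf_dvd Finset.univ N hN
  rw [Finset.prod_congr rfl (fun c _ => hNi c), Finset.prod_const, Finset.card_univ,
    ← Nat.card_eq_fintype_card, ← index_eq_card, show (M₂.subgroupOf M₁).index = d from h1] at h3
  refine dvd_trans (index_dvd_of_le ?_) (h3.trans (pow_dvd_pow_of_dvd hb d))
  intro x hx
  simp only [Finset.mem_univ, iInf_pos, mem_iInf] at hx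
  rw [mem_subgroupOf, mem_coreIn]
  refine ⟨(hA1 x.2).1, fun g hg => ⟨conj_mem_of_mem_normalizer (nA1 hg) x.2, ?_⟩⟩
  obtain ⟨t, ht⟩ := QuotientGroup.mk_out_eq_mul (M₂.subgroupOf M₁) (⟨g, hg⟩⁻¹ : M₁)
  have h4 := mem_cj.mp (hx (QuotientGroup.mk (⟨g, hg⟩⁻¹ : M₁)))
  rw [ht] at h4
  have := conj_mem_of_mem_normalizer (nB1 t.2) h4
  simpa [mul_assoc] using this

variable {Ω : Type*} [MulAction G Ω]

theorem nonempty_stabilizer_equiv (h : IsPretransitive G Ω) (a b : Ω) :
    Nonempty (stabilizer G a ≃* stabilizer G b) := by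
  obtain ⟨g, rfl⟩ := h.exists_smul_eq a b
  rw [stabilizer_smul_eq_stabilizer_map_conj]
  exact ⟨(stabilizer G a).equivMapOfInjective _ (MulAut.conj g).injective⟩

theorem twPair_stabilizer [FaithfulSMul G Ω] (h : IsPreprimitive G Ω) {a b : Ω}
    (hne : stabilizer G a ≠ stabilizer G b) : TWPair (stabilizer G a) (stabilizer G b) := by
  have : Nontrivial Ω := ⟨a, b, fun e => hne (by rw [e])⟩
  exact twPair_of_isCoatom (isCoatom_stabilizer h a) (isCoatom_stabilizer h b)
    (eq_bot_of_normal_le_stabilizer h.toIsPretransitive _ inferInstance a (normalCore_le _))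
    (eq_bot_of_normal_le_stabilizer h.toIsPretransitive _ inferInstance b (normalCore_le _))
    hne (nonempty_stabilizer_equiv h.toIsPretransitive a b)

theorem stabilizer_ne_of_two_le {a b : Ω} {d : ℕ}
    (hd : Nat.card (orbit (stabilizer G a) b) = d) (h2 : 2 ≤ d) :
    stabilizer G a ≠ stabilizer G b := fun e => by
  rw [card_orbit_stabilizer, e, relIndex_self] at hd
  omega

/-- Either the stabiliser order is bounded, or both second cores are non-trivial. -/
theorem card_dvd_or [Finite G] (h : IsPretransitive G Ω) {a b : Ω} {d : ℕ}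
    (hd : Nat.card (orbit (stabilizer G a) b) = d) :
    Nat.card (stabilizer G a) ∣ d.factorial * (d - 1).factorial ^ d ∨
    (coreIn (stabilizer G a) (coreIn (stabilizer G a) (stabilizer G a ⊓ stabilizer G b) ⊓
        coreIn (stabilizer G b) (stabilizer G a ⊓ stabilizer G b)) ≠ ⊥ ∧
      coreIn (stabilizer G b) (coreIn (stabilizer G a) (stabilizer G a ⊓ stabilizer G b) ⊓
        coreIn (stabilizer G b) (stabilizer G a ⊓ stabilizer G b)) ≠ ⊥) := by
  rw [card_orbit_stabilizer] at hd
  have hd' := (relIndex_stabilizer_comm h a b).symm.trans hd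
  by_contra hh
  rw [not_or, not_and_or, not_not, not_not] at hh
  apply hh.1
  rcases hh.2 with e | e
  · have := relIndex_core2_dvd hd hd'
    rwa [e, relIndex_bot_left] at this
  · have := relIndex_core2_dvd hd' hd
    rwa [inf_comm (stabilizer G b), inf_comm, e, relIndex_bot_left,
      card_stabilizer_eq h b a] at this

end H75
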